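import Cfsg.Agent.H30.GLTwoThreeSimple
import Cfsg.Agent.H30.GLTwoThreeUnique
import Cfsg.Agent.H30.M11Unique
import Cfsg.Agent.H19.InvolutionPattern
import Cfsg.Agent.H1.PSLSimple
import Cfsg.Agent.H13.Actions

/-!
# Recognition of L3(3) and M11 by an involution centralizer GL(2,3)
-/

set_option autoImplicit false
set_option synthInstance.maxSize 4096

namespace Cfsg.Agent.H30.GLTwoThree

/-- The recognition theorem. -/
theorem recognition {G : Type*} [Group G] [Finite G] {t : G}
    (e : Subgroup.centralizer ({t} : Set G) ≃* M) (ht : orderOf t = 2)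
    (hO : Cfsg.pResidual 2 G = ⊤) :
    Nonempty (G ≃* Matrix.ProjectiveSpecialLinearGroup (Fin 3) (ZMod 3)) ∨ Cfsg.Spor.IsoM11 G := by
  have hs : IsSimpleGroup G := isSimpleGroup_of_pResidual_eq_top e ht hO
  rcases card_of_pResidual_eq_top e ht hO with h | h
  · left
    have hF : Fintype.card (ZMod 3) = 3 := ZMod.card 3
    have hcard := H19.card_psl_three_three (F := ZMod 3) hF
    have : IsSimpleGroup (Matrix.ProjectiveSpecialLinearGroup (Fin 3) (ZMod 3)) :=
      H1.isSimpleGroup_PSL_of_three_le 3 le_rfl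
    obtain ⟨s, hs2⟩ := exists_prime_orderOf_dvd_card'
      (G := Matrix.ProjectiveSpecialLinearGroup (Fin 3) (ZMod 3)) 2 (hp := ⟨Nat.prime_two⟩)
      (by rw [hcard]; norm_num)
    obtain ⟨es⟩ := H19.centralizer_psl_three_three hF s hs2
    obtain ⟨f⟩ := nonempty_mulEquiv_aut e ht h
    obtain ⟨f'⟩ := nonempty_mulEquiv_aut es hs2 hcard
    exact ⟨f.trans f'.symm⟩
  · right
    have hM : Nat.card ↥Cfsg.Spor.M11 = 7920 := by rw [H13.M11_eq, H13.card_g11]
    have : IsSimpleGroup ↥Cfsg.Spor.M11 := by rw [H13.M11_eq]; exact H13.g11_simple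
    exact H30.MElevenUnique.nonempty_mulEquiv h hM

end Cfsg.Agent.H30.GLTwoThree
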