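import Cfsg.Agent.H30.GLTwoThreeLocal

/-!
# Simplicity from an involution centralizer GL(2,3)
-/

set_option autoImplicit false
set_option synthInstance.maxSize 4096
set_option maxHeartbeats 1000000
set_option maxRecDepth 4000

namespace Cfsg.Agent.H30.GLTwoThree

theorem pow_exponent : ∀ a : M, a ^ 24 = 1 := by decide +kernel

theorem reflections : ∀ a : M, ∃ b : M, b * b = 1 ∧ ∃ c : M, c * c = 1 ∧
    ((b * c)⁻¹ * a) * ((b * c)⁻¹ * a) = 1 := by decide +kernel

theorem three_product : ∀ a : M, cls a = 3 → ∃ g : M, (a * (g * a * g⁻¹)) ^ 3 ≠ 1 := by decide +kernel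

theorem exists_commuting_involution : ∃ u : M, u * u = 1 ∧ u ≠ 1 ∧ u ≠ τ := by decide +kernel

variable {G : Type*} [Group G] [Finite G] {t : G}
  (e : Subgroup.centralizer ({t} : Set G) ≃* M) (ht : orderOf t = 2)

local notation:max "C⟨" a "⟩" => Subgroup.centralizer ({a} : Set G)

include e ht in
/-- No normal subgroups. -/
theorem isSimpleGroup_of_pResidual_eq_top (hO : Cfsg.pResidual 2 G = ⊤) : IsSimpleGroup G := by
  have : Fact (Nat.Prime 2) := ⟨Nat.prime_two⟩
  have hconj := all_involutions_of_top e ht hO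
  have hnt : Nontrivial G := ⟨⟨t, 1, fun h => by rw [h, orderOf_one] at ht; omega⟩⟩
  refine { eq_bot_or_eq_top_of_normal := fun N hN => ?_ }
  by_cases h2 : 2 ∣ Nat.card N
  · refine Or.inr ?_
    obtain ⟨i, hi⟩ := exists_prime_orderOf_dvd_card' (G := N) 2 h2
    have hmemN : ∀ u : G, u * u = 1 → u ∈ N := by
      intro u hu
      by_cases hu1 : u = 1
      · rw [hu1]; exact one_mem N
      have huo : orderOf u = 2 := orderOf_eq_prime (by rw [pow_two, hu]) hu1
      obtain ⟨g, hg⟩ := isConj_iff.mp ((hconj (i : G) (by rw [Subgroup.orderOf_coe, hi])).symm.trans (hconj u huo))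
      exact hg ▸ hN.conj_mem _ i.2 g
    have hCN : C⟨t⟩ ≤ N := by
      intro c hc
      obtain ⟨b, hb, d, hd, hbd⟩ := reflections (e ⟨c, hc⟩)
      have key : ∀ m : M, m * m = 1 → ((e.symm m : C⟨t⟩) : G) ∈ N := fun m hm =>
        hmemN _ (by rw [← Subgroup.coe_mul, ← map_mul, hm, map_one, Subgroup.coe_one])
      have h := mul_mem (mul_mem (key b hb) (key d hd)) (key _ hbd)
      rw [← Subgroup.coe_mul, ← Subgroup.coe_mul, ← map_mul, ← map_mul, mul_inv_cancel_left,
        e.symm_apply_apply] at h
      exact h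
    have := Fintype.ofFinite G
    obtain ⟨m, hm, hodd⟩ := exists_odd_cofactor e ht
    obtain ⟨e8, he8⟩ := e.surjective eM
    have he8o : orderOf (e8 : G) = 8 := by
      rw [← orderOf_map e, he8]
      exact orderOf_eq_prime_pow (p := 2) (n := 2) orderOf_eM.2 orderOf_eM.1
    obtain ⟨T, hT⟩ := (IsPGroup.of_card (p := 2) (n := 3) (G := Subgroup.zpowers e8)
      (by rw [Nat.card_zpowers, ← Subgroup.orderOf_coe, he8o]; norm_num)).exists_le_sylow
    set T' : Subgroup G := (T : Subgroup C⟨t⟩).map (C⟨t⟩).subtype with hT'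
    have hT16 : Nat.card T' = 2 ^ 4 := by
      rw [hT', ← Nat.card_congr ((T : Subgroup C⟨t⟩).equivMapOfInjective _
        (Subgroup.subtype_injective _)).toEquiv]
      exact H30.card_sylow_subgroup T (a := 4) (m := 3) (by rw [card_cent e]; norm_num) (by norm_num)
    have hT'N : T' ≤ N := (Subgroup.map_subtype_le _).trans hCN
    have hp : IsPGroup 2 (T'.subgroupOf N) := IsPGroup.of_card (n := 4)
      ((Nat.card_congr (Subgroup.subgroupOfEquivOfLe hT'N).toEquiv).trans hT16)
    obtain ⟨P, hP⟩ := hp.exists_le_sylow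
    have hPmap : (P : Subgroup N).map N.subtype = T' := by
      refine (Subgroup.eq_of_le_of_card_ge ?_ ?_).symm
      · intro x hx
        exact ⟨⟨x, hT'N hx⟩, hP hx, rfl⟩
      · rw [hT16, ← Nat.card_congr ((P : Subgroup N).equivMapOfInjective _ N.subtype_injective).toEquiv]
        obtain ⟨Q, hQ⟩ := (P.isPGroup'.map N.subtype).exists_le_sylow
        have h := Subgroup.card_le_of_le hQ
        rw [H30.card_sylow_subgroup Q (a := 4) (m := 3 * m) (by rw [hm]; ring)
          (fun h => hodd ((Nat.Coprime.dvd_mul_left (by norm_num)).mp h)),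
          ← Nat.card_congr ((P : Subgroup N).equivMapOfInjective _ N.subtype_injective).toEquiv] at h
        exact h
    have hnorm : Subgroup.normalizer (T' : Set G) ≤ N := by
      intro g hg
      have htT : t ∈ T' := by
        refine ⟨⟨t, Subgroup.mem_centralizer_singleton_iff.mpr rfl⟩, ?_, rfl⟩
        have h4 : (⟨t, Subgroup.mem_centralizer_singleton_iff.mpr rfl⟩ : C⟨t⟩) = e8 ^ 4 := e.injective (by
          rw [map_t e ht, map_pow, he8]; decide +kernel)
        rw [SetLike.mem_coe, h4]
        exact pow_mem (hT (Subgroup.mem_zpowers e8)) 4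
      have hcen : ∀ p ∈ T', p * t = t * p := by
        rintro _ ⟨x, -, rfl⟩
        exact Subgroup.mem_centralizer_singleton_iff.mp x.2
      obtain ⟨x, hxT, hx⟩ := (Subgroup.mem_normalizer_iff.mp hg t).mp htT
      have hxo : orderOf (x : G) = 2 := by
        rw [show (x : G) = g * t * g⁻¹ from hx]
        exact (orderOf_injective (MulAut.conj g).toMonoidHom (MulAut.conj g).injective t).trans ht
      obtain ⟨h1, h1'⟩ := (two_iff e x).mp hxo
      have h3 := commute_eM (e x) h1 h1' (by
        rw [← he8, ← map_mul, ← map_mul]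
        refine congrArg e (Subtype.ext ?_)
        have he8T : (e8 : G) ∈ T' := ⟨e8, hT (Subgroup.mem_zpowers e8), rfl⟩
        have hmem := (Subgroup.mem_normalizer_iff.mp (inv_mem hg) _).mp he8T
        rw [inv_inv] at hmem
        have h := hcen _ hmem
        show (x : G) * e8 = e8 * x
        rw [show (x : G) = g * t * g⁻¹ from hx]
        calc g * t * g⁻¹ * e8 = g * (t * (g⁻¹ * e8 * g)) * g⁻¹ := by group
          _ = g * (g⁻¹ * e8 * g * t) * g⁻¹ := by rw [h]
          _ = _ := by group)
      have hgt : g * t * g⁻¹ = t := by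
        rw [← show (x : G) = g * t * g⁻¹ from hx]
        exact congrArg Subtype.val (e.injective (h3.trans (map_t e ht).symm))
      exact hCN (Subgroup.mem_centralizer_singleton_iff.mpr (mul_inv_eq_iff_eq_mul.mp hgt))
    have hF := Sylow.normalizer_sup_eq_top P
    rw [hPmap, sup_eq_right.mpr hnorm] at hF
    exact hF
  · refine Or.inl ?_
    have hodd : Odd (Nat.card N) := Nat.not_even_iff_odd.mp fun h => h2 (even_iff_two_dvd.mp h)
    -- no fixed points on the odd normal subgroup
    have hfix : ∀ n ∈ N, n ∈ C⟨t⟩ → n = 1 := by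
      have hcube : ∀ c : C⟨t⟩, (c : G) ∈ N → e c ^ 3 = 1 := by
        intro c hc
        have h1 : orderOf (c : G) ∣ 24 := by
          rw [← orderOf_map e]; exact orderOf_dvd_of_pow_eq_one (pow_exponent _)
        have h2' : orderOf (c : G) ∣ Nat.card N := Subgroup.orderOf_dvd_natCard N hc
        have hcop : (orderOf (c : G)).Coprime 8 := by
          have : ((orderOf (c : G))).Coprime 2 := (Nat.coprime_two_right.mpr hodd).coprime_dvd_left h2'
          simpa using this.pow_right 3
        have h3 : orderOf (c : G) ∣ 3 := hcop.dvd_of_dvd_mul_left (show orderOf (c : G) ∣ 8 * 3 from h1)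
        rw [← orderOf_map e] at h3
        exact orderOf_dvd_iff_pow_eq_one.mp h3
      intro n hn hnC
      by_contra hn1
      have hc : cls (e ⟨n, hnC⟩) = 3 := cube_cls _ (hcube ⟨n, hnC⟩ hn) fun h =>
        hn1 (congrArg Subtype.val (e.injective (h.trans (map_one e).symm)))
      obtain ⟨g, hg⟩ := three_product _ hc
      apply hg
      have hm := hcube (⟨n, hnC⟩ * (e.symm g * ⟨n, hnC⟩ * (e.symm g)⁻¹)) (by
        simp only [Subgroup.coe_mul, Subgroup.coe_inv]
        exact mul_mem hn (hN.conj_mem _ hn _))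
      rwa [map_mul, map_mul, map_mul, map_inv, e.apply_symm_apply] at hm
    -- every involution inverts
    have hinv : ∀ u : G, orderOf u = 2 → ∀ n ∈ N, u * n * u⁻¹ = n⁻¹ := by
      intro u hu n hn
      let f : N →* N :=
        { toFun := fun p => ⟨u * p * u⁻¹, hN.conj_mem _ p.2 u⟩
          map_one' := Subtype.ext (show u * 1 * u⁻¹ = 1 by group)
          map_mul' := fun a b => Subtype.ext
            (show u * ((a : G) * b) * u⁻¹ = u * a * u⁻¹ * (u * b * u⁻¹) by group) }
      have hf : MonoidHom.FixedPointFree f := by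
        intro p hp
        have hp' : u * (p : G) * u⁻¹ = p := congrArg Subtype.val hp
        obtain ⟨g, hg⟩ := isConj_iff.mp (hconj u hu)
        refine Subtype.ext ?_
        have h := hfix (g⁻¹ * p * g) (by simpa using hN.conj_mem _ p.2 g⁻¹)
          (Subgroup.mem_centralizer_singleton_iff.mpr (by
            have h' := mul_inv_eq_iff_eq_mul.mp hp'
            rw [← hg] at h'
            calc g⁻¹ * (p : G) * g * t = g⁻¹ * ((p : G) * (g * t * g⁻¹)) * g := by group
              _ = g⁻¹ * (g * t * g⁻¹ * p) * g := by rw [h']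
              _ = _ := by group))
        show (p : G) = 1
        calc (p : G) = g * (g⁻¹ * p * g) * g⁻¹ := by group
          _ = 1 := by rw [h]; group
      have huu : u * u = 1 := by rw [← pow_two, ← hu, pow_orderOf_eq_one]
      have hi : Function.Involutive f := fun p => Subtype.ext (by
        show u * (u * (p : G) * u⁻¹) * u⁻¹ = p
        rw [inv_eq_of_mul_eq_one_right huu, show u * (u * (p : G) * u) * u = u * u * p * (u * u) by group,
          huu, one_mul, mul_one])
      have h := congrFun (hf.coe_eq_inv_of_involutive hi) ⟨n, hn⟩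
      exact congrArg Subtype.val h
    obtain ⟨uM, hu1, hu0, huτ⟩ := exists_commuting_involution
    set u0 := e.symm uM with hu0'
    have huo : orderOf (u0 : G) = 2 := by
      rw [← orderOf_map e, hu0', e.apply_symm_apply]
      exact orderOf_eq_prime (by rw [pow_two, hu1]) hu0
    have htu : orderOf (t * (u0 : G)) = 2 := by
      refine orderOf_eq_prime ?_ fun h => ?_
      · rw [(show Commute t (u0 : G) from (Subgroup.mem_centralizer_singleton_iff.mp u0.2).symm).mul_pow,
          ← ht, pow_orderOf_eq_one, one_mul, ht, ← huo, pow_orderOf_eq_one]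
      · apply huτ
        have h' : (u0 : G) = t := by
          rw [eq_inv_of_mul_eq_one_right h]
          exact inv_eq_of_mul_eq_one_right (by rw [← pow_two, ← ht, pow_orderOf_eq_one])
        rw [← map_t e ht, ← e.apply_symm_apply uM]
        exact congrArg e (Subtype.ext h')
    rw [eq_bot_iff]
    intro n hn
    rw [Subgroup.mem_bot]
    have h1 := hinv (t * (u0 : G)) htu n hn
    rw [show t * (u0 : G) * n * (t * (u0 : G))⁻¹ = t * ((u0 : G) * n * (u0 : G)⁻¹) * t⁻¹ by group,
      hinv _ huo n hn, hinv _ ht n⁻¹ (inv_mem hn), inv_inv] at h1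
    have h2 : n ^ 2 = 1 := by rw [pow_two]; exact eq_inv_iff_mul_eq_one.mp h1
    have h3 : orderOf n = 1 := Nat.eq_one_of_dvd_coprimes (a := 2) (b := Nat.card N)
      (Nat.coprime_two_left.mpr hodd) (orderOf_dvd_of_pow_eq_one h2) (Subgroup.orderOf_dvd_natCard N hn)
    exact orderOf_eq_one_iff.mp h3

end Cfsg.Agent.H30.GLTwoThree
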