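import Cfsg.Agent.H30.M11Facts

/-!
# Groups with the element counts of the simple group of order 7920
-/

set_option autoImplicit false
set_option synthInstance.maxSize 4096
set_option maxHeartbeats 1000000

namespace Cfsg.Agent.H30.SameCounts

variable {G : Type*} [Group G] [Finite G]

/-- The number of elements of order `n`. -/
noncomputable def cnt (G : Type*) [Group G] (n : ℕ) : ℕ := Nat.card {g : G // orderOf g = n}

theorem orderOf_conj (g x : G) : orderOf (g * x * g⁻¹) = orderOf x :=
  orderOf_injective (MulAut.conj g).toMonoidHom (MulAut.conj g).injective x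

/-- A set with a fixed-point-free permutation of prime order has cardinality divisible by it. -/
theorem dvd_card_of_no_fixed_point {α : Type*} [Finite α] {p : ℕ} [Fact p.Prime]
    (σ : Equiv.Perm α) (h1 : σ ^ p = 1) (h2 : ∀ a, σ a ≠ a) : p ∣ Nat.card α := by
  let _ := Fintype.ofFinite α
  by_contra h
  rw [Nat.card_eq_fintype_card] at h
  obtain ⟨a, ha⟩ :=
    Equiv.Perm.exists_fixed_point_of_prime (n := 1) h (σ := σ) (by rw [pow_one, h1])
  exact h2 a ha

/-- Conjugation by an element of order `p` with centralizer of order `p` on elements of a given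
order. -/
theorem prime_dvd_cnt {p : ℕ} [hp : Fact p.Prime] {z : G} (hz : orderOf z = p)
    (hC : Nat.card (Subgroup.centralizer ({z} : Set G)) = p) {n : ℕ} (h1 : n ≠ 1) (hn : n ≠ p) :
    p ∣ cnt G n := by
  have hiff : ∀ g : G, orderOf ((MulAut.conj z).toEquiv g) = n ↔ orderOf g = n := fun g => by
    show orderOf (z * g * z⁻¹) = n ↔ _
    rw [orderOf_conj]
  let σ : Equiv.Perm {g : G // orderOf g = n} :=
    Equiv.Perm.subtypePerm (MulAut.conj z).toEquiv hiff
  have hσ : ∀ (k : ℕ) (a : {g : G // orderOf g = n}),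
      ((σ ^ k) a : G) = z ^ k * a * (z ^ k)⁻¹ := by
    intro k
    induction k with
    | zero => intro a; simp
    | succ k ih =>
      intro a
      rw [pow_succ', Equiv.Perm.mul_apply]
      show z * ((σ ^ k) a : G) * z⁻¹ = _
      rw [ih, pow_succ']
      group
  refine dvd_card_of_no_fixed_point σ (Equiv.ext fun a => Subtype.ext (by
    rw [hσ, ← hz, pow_orderOf_eq_one]; simp)) fun a ha => ?_
  have ha' : z * (a : G) * z⁻¹ = a := by
    have := hσ 1 a
    rw [pow_one, pow_one, ha] at this
    exact this.symm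
  have hmem : (a : G) ∈ Subgroup.centralizer ({z} : Set G) :=
    Subgroup.mem_centralizer_singleton_iff.mpr (mul_inv_eq_iff_eq_mul.mp ha').symm
  have hd := Subgroup.orderOf_dvd_natCard _ hmem
  rw [hC, a.2] at hd
  rcases (Nat.dvd_prime hp.out).mp hd with e | e
  · exact h1 e
  · exact hn e

/-- Elements of order above two come in pairs. -/
theorem two_dvd_card_of_inv (q : ℕ → Prop) (hq : ∀ n, q n → 2 < n) :
    2 ∣ Nat.card {g : G // q (orderOf g)} := by
  have hiff : ∀ g : G, q (orderOf ((Equiv.inv G) g)) ↔ q (orderOf g) := fun g => by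
    show q (orderOf g⁻¹) ↔ _
    rw [orderOf_inv]
  let σ : Equiv.Perm {g : G // q (orderOf g)} := Equiv.Perm.subtypePerm (Equiv.inv G) hiff
  have : Fact (Nat.Prime 2) := ⟨Nat.prime_two⟩
  refine dvd_card_of_no_fixed_point σ (Equiv.ext fun a => Subtype.ext ?_) fun a ha => ?_
  · rw [pow_two]
    show ((a : G)⁻¹)⁻¹ = a
    exact inv_inv _
  · have h := hq _ a.2
    have h' : (a : G)⁻¹ = a := congrArg Subtype.val ha
    have h2 : (a : G) ^ 2 = 1 := by
      rw [pow_two]; nth_rewrite 1 [← h']; exact inv_mul_cancel _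
    have := Nat.le_of_dvd two_pos (orderOf_dvd_of_pow_eq_one h2)
    omega

/-- For a Sylow subgroup of prime order, `p - 1` elements of order `p` in each. -/
theorem cnt_prime {p m : ℕ} [hp : Fact p.Prime] (hcard : Nat.card G = p * m) (hm : ¬ p ∣ m) :
    cnt G p = Nat.card (Sylow p G) * (p - 1) := by
  classical
  let _ := Fintype.ofFinite G
  let _ : Fintype (Sylow p G) := Fintype.ofFinite _
  have hQ : ∀ Q : Sylow p G, Nat.card (Q : Subgroup G) = p := fun Q => by
    rw [H30.card_sylow_subgroup Q (a := 1) (m := m) (by rw [hcard, pow_one]) hm, pow_one]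
  have hord : ∀ (Q : Sylow p G) (q : (Q : Subgroup G)), q ≠ 1 → orderOf (q : G) = p := fun Q q hq => by
    rw [Subgroup.orderOf_coe]
    have hd : orderOf q ∣ p := (orderOf_dvd_natCard q).trans (dvd_of_eq (hQ Q))
    exact ((Nat.dvd_prime hp.out).mp hd).resolve_left fun e => hq (orderOf_eq_one_iff.mp e)
  let f : (Σ Q : Sylow p G, {q : (Q : Subgroup G) // q ≠ 1}) → {g : G // orderOf g = p} :=
    fun a => ⟨(a.2.1 : G), hord a.1 a.2.1 a.2.2⟩
  have hf : Function.Bijective f := by
    constructor
    · rintro ⟨Q, q, hq⟩ ⟨R, r, hr⟩ e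
      have e' : (q : G) = r := congrArg Subtype.val e
      have hsub : ∀ (S : Sylow p G) (s : (S : Subgroup G)), s ≠ 1 →
          Subgroup.zpowers (s : G) = S := fun S s hs =>
        Subgroup.eq_of_le_of_card_ge (Subgroup.zpowers_le.mpr s.2)
          (by rw [Nat.card_zpowers, hord S s hs, hQ S])
      have hQR : Q = R := Sylow.ext (by rw [← hsub Q q hq, ← hsub R r hr, e'])
      subst hQR
      obtain rfl : q = r := Subtype.ext e'
      rfl
    · rintro ⟨g, hg⟩
      obtain ⟨Q, hQle⟩ := (IsPGroup.of_card (p := p) (n := 1) (G := Subgroup.zpowers g)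
        (by rw [Nat.card_zpowers, hg, pow_one])).exists_le_sylow
      refine ⟨⟨Q, ⟨g, hQle (Subgroup.mem_zpowers g)⟩, fun e => ?_⟩, rfl⟩
      have e' : g = 1 := congrArg Subtype.val e
      rw [e', orderOf_one] at hg
      exact hp.out.one_lt.ne hg
  have hfib : ∀ Q : Sylow p G, Nat.card {q : (Q : Subgroup G) // q ≠ 1} = p - 1 := fun Q => by
    rw [Nat.card_eq_fintype_card, Fintype.card_subtype_compl, Fintype.card_subtype_eq,
      ← Nat.card_eq_fintype_card, hQ Q]
  rw [cnt, ← Nat.card_eq_of_bijective f hf, Nat.card_sigma]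
  simp only [hfib]
  rw [Finset.sum_const, Finset.card_univ, smul_eq_mul, Nat.card_eq_fintype_card]

theorem cnt_one : cnt G 1 = 1 := by
  rw [cnt, Nat.card_eq_one_iff_unique]
  exact ⟨⟨fun a b => Subtype.ext ((orderOf_eq_one_iff.mp a.2).trans
    (orderOf_eq_one_iff.mp b.2).symm)⟩, ⟨1, orderOf_one⟩⟩

theorem cnt_pos {g : G} {n : ℕ} (h : orderOf g = n) : 0 < cnt G n :=
  Nat.card_pos_iff.mpr ⟨⟨⟨g, h⟩⟩, inferInstance⟩

/-- The element counts of a simple group of order 7920. -/
theorem simple_counts {M : Type*} [Group M] [Fintype M] [IsSimpleGroup M]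
    (hcard : Nat.card M = 7920) :
    cnt M 2 = 165 ∧ cnt M 5 = 1584 ∧ cnt M 11 = 1440 ∧
      ∀ n, n ≠ 1 → n ≠ 2 → n ≠ 5 → n ≠ 11 → 0 < cnt M n →
        2 ∣ cnt M n ∧ 5 ∣ cnt M n ∧ 11 ∣ cnt M n := by
  classical
  have : Fact (Nat.Prime 5) := ⟨by norm_num⟩
  have : Fact (Nat.Prime 11) := ⟨by norm_num⟩
  obtain ⟨z, y, d, K, F⟩ := Order7920.exists_facts hcard
  have hG : ¬ IsMulCommutative M := Order7920.nonComm hcard
  refine ⟨?_, ?_, ?_, fun n h1 h2 h5 h11 hpos => ?_⟩
  · obtain ⟨u, hu⟩ := exists_prime_orderOf_dvd_card' (G := M) 2 (by rw [hcard]; norm_num)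
    have h := H31.card_class_mul_centralizer u
    rw [(F.inv u hu).card, hcard] at h
    have e : Nat.card {g : M // IsConj u g} = cnt M 2 := Nat.card_congr
      (Equiv.subtypeEquivRight fun g =>
        ⟨fun hc => by obtain ⟨c, rfl⟩ := isConj_iff.mp hc; rw [orderOf_conj, hu],
         fun hg => F.invConj u g hu hg⟩)
    omega
  · rw [cnt_prime (p := 5) (m := 1584) (by rw [hcard]) (by norm_num)]
    let Q : Sylow 5 M := default
    have hQ : Nat.card (Q : Subgroup M) = 5 := by
      rw [H30.card_sylow_subgroup Q (a := 1) (m := 1584) (by rw [hcard]; norm_num) (by norm_num),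
        pow_one]
    obtain ⟨e, c, he, he1, hN, hC⟩ := H30.exists_automizer_of_prime_order hG 5 Q hQ
    obtain ⟨w, hw⟩ := exists_prime_orderOf_dvd_card' (G := (Q : Subgroup M)) 5 (by rw [hQ])
    have hc : Nat.card (Subgroup.centralizer ((Q : Subgroup M) : Set M)) = 5 := by
      have hgen : (Q : Subgroup M) = Subgroup.zpowers (w : M) :=
        (Subgroup.eq_of_le_of_card_ge (Subgroup.zpowers_le.mpr w.2)
          (by rw [Nat.card_zpowers, Subgroup.orderOf_coe, hw, hQ])).symm
      rw [hgen, Subgroup.zpowers_eq_closure, Subgroup.centralizer_closure,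
        F.five (w : M) (by rw [Subgroup.orderOf_coe, hw])]
    have hmul := H30.card_sylow_mul_normalizer 5 Q
    have hmod : Nat.card (Sylow 5 M) % 5 = 1 := card_sylow_modEq_one 5 M
    rw [hN, hcard] at hmul
    rw [hC] at hc
    have hc1 : c = 1 := by omega
    subst hc1
    have hle : e ≤ 4 := Nat.le_of_dvd (by norm_num) he
    generalize Nat.card (Sylow 5 M) = n at hmul hmod
    interval_cases e <;> first | omega | (norm_num at he)
  · rw [cnt_prime (p := 11) (m := 720) (by rw [hcard]) (by norm_num)]
    obtain ⟨z', hz', hC', hE'⟩ := Order7920.exists_eleven (G := M) hcard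
    let Q : Sylow 11 M := Sylow.ofCard (Subgroup.zpowers z') (by
      have h3 := H30.card_sylow_subgroup (default : Sylow 11 M) (a := 1) (m := 720)
        (by rw [hcard]; norm_num) (by norm_num)
      rw [Sylow.card_eq_multiplicity, pow_one] at h3
      rw [Nat.card_zpowers, hz', h3])
    have hmul := H30.card_sylow_mul_normalizer 11 Q
    rw [show (Q : Subgroup M) = Subgroup.zpowers z' from rfl,
      H30.card_normalizer_zpowers (p := 11) hz' hC', hE', hcard] at hmul
    omega
  · obtain ⟨⟨g, hg⟩⟩ : Nonempty {g : M // orderOf g = n} := (Nat.card_pos_iff.mp hpos).1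
    have h0 : 2 < n := by
      have := orderOf_pos g
      omega
    refine ⟨two_dvd_card_of_inv (fun m => m = n) (fun m hm => hm ▸ h0),
      prime_dvd_cnt F.order5 (F.five y F.order5) h1 h5,
      prime_dvd_cnt F.order11 (F.eleven z F.order11) h1 h11⟩

/-- A normal subgroup containing an element of order `p` contains all of them. -/
theorem mem_normal_of_orderOf {p : ℕ} [hp : Fact p.Prime] (hm : ∀ Q : Sylow p G,
    Nat.card (Q : Subgroup G) = p) (N : Subgroup G) [N.Normal] (hdvd : p ∣ Nat.card N) {g : G}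
    (hg : orderOf g = p) : g ∈ N := by
  obtain ⟨x, hx⟩ := exists_prime_orderOf_dvd_card' p hdvd
  obtain ⟨Q, hQ⟩ := (IsPGroup.of_card (p := p) (n := 1) (G := Subgroup.zpowers (x : G))
    (by rw [Nat.card_zpowers, Subgroup.orderOf_coe, hx, pow_one])).exists_le_sylow
  obtain ⟨R, hR⟩ := (IsPGroup.of_card (p := p) (n := 1) (G := Subgroup.zpowers g)
    (by rw [Nat.card_zpowers, hg, pow_one])).exists_le_sylow
  have hQN : (Q : Subgroup G) ≤ N := by
    rw [← Subgroup.eq_of_le_of_card_ge hQ
      (by rw [Nat.card_zpowers, Subgroup.orderOf_coe, hx, hm Q])]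
    exact Subgroup.zpowers_le.mpr x.2
  obtain ⟨c, hc⟩ := MulAction.exists_smul_eq G Q R
  have hgR : g ∈ ((c • Q : Sylow p G) : Subgroup G) := by
    rw [hc]; exact hR (Subgroup.mem_zpowers g)
  rw [Sylow.coe_subgroup_smul] at hgR
  obtain ⟨q, hq, rfl⟩ := Subgroup.mem_map.mp hgR
  exact (inferInstance : N.Normal).conj_mem q (hQN hq) c

/-- A subgroup containing the identity and all elements of the orders in `S`. -/
theorem one_add_sum_le (N : Subgroup G) (S : Finset ℕ) (h1 : 1 ∉ S)
    (h : ∀ n ∈ S, ∀ g : G, orderOf g = n → g ∈ N) : 1 + ∑ n ∈ S, cnt G n ≤ Nat.card N := by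
  classical
  let _ := Fintype.ofFinite G
  have hs : insert 1 (Finset.univ.filter fun g : G => orderOf g ∈ S) ⊆
      Finset.univ.filter fun g : G => g ∈ N := by
    intro g hg
    simp only [Finset.mem_insert, Finset.mem_filter, Finset.mem_univ, true_and] at hg ⊢
    rcases hg with rfl | hg
    · exact one_mem N
    · exact h _ hg g rfl
  have hcard := Finset.card_le_card hs
  rw [Finset.card_insert_of_notMem (by simp [orderOf_one, h1]),
    Finset.card_eq_sum_card_fiberwise (s := Finset.univ.filter fun g : G => orderOf g ∈ S) (t := S)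
      (f := orderOf) (fun g hg => (Finset.mem_filter.mp hg).2)]
    at hcard
  have hN : Nat.card N = (Finset.univ.filter fun g : G => g ∈ N).card := by
    rw [Nat.card_eq_fintype_card, Fintype.card_subtype]
  have hsum : ∑ n ∈ S, cnt G n = ∑ n ∈ S,
      ((Finset.univ.filter fun g : G => orderOf g ∈ S).filter fun g => orderOf g = n).card := by
    refine Finset.sum_congr rfl fun n hn => ?_
    rw [cnt, Nat.card_eq_fintype_card, Fintype.card_subtype, Finset.filter_filter]
    refine congrArg Finset.card (Finset.filter_congr fun g _ => ?_)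
    exact ⟨fun e => ⟨e ▸ hn, e⟩, fun e => e.2⟩
  omega

/-- Simplicity from the numbers of elements of orders two, five and eleven. -/
theorem isSimpleGroup_of_counts (hcard : Nat.card G = 7920) (h11 : cnt G 11 = 1440)
    (h5 : cnt G 5 = 1584) (h2 : cnt G 2 = 1 ∨ cnt G 2 = 165) : IsSimpleGroup G := by
  classical
  have : Fact (Nat.Prime 2) := ⟨Nat.prime_two⟩
  have : Fact (Nat.Prime 3) := ⟨Nat.prime_three⟩
  have : Fact (Nat.Prime 5) := ⟨by norm_num⟩
  have : Fact (Nat.Prime 11) := ⟨by norm_num⟩
  have hQ11 : ∀ Q : Sylow 11 G, Nat.card (Q : Subgroup G) = 11 := fun Q => by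
    rw [H30.card_sylow_subgroup Q (a := 1) (m := 720) (by rw [hcard]; norm_num) (by norm_num), pow_one]
  have hQ5 : ∀ Q : Sylow 5 G, Nat.card (Q : Subgroup G) = 5 := fun Q => by
    rw [H30.card_sylow_subgroup Q (a := 1) (m := 1584) (by rw [hcard]; norm_num) (by norm_num), pow_one]
  have hn11 : Nat.card (Sylow 11 G) = 144 := by
    have := cnt_prime (G := G) (p := 11) (m := 720) (by rw [hcard]) (by norm_num)
    omega
  have hN11 : ∀ P : Sylow 11 G,
      Nat.card (Subgroup.normalizer ((P : Subgroup G) : Set G)) = 55 := fun P => by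
    have := H30.card_sylow_mul_normalizer 11 P
    rw [hn11, hcard] at this
    omega
  have hsmall : ∀ N : Subgroup G, N.Normal → ¬ 11 ∣ Nat.card N → N = ⊥ := by
    intro N hNn h11N
    by_contra hne
    have h720 : Nat.card N ∣ 720 :=
      ((Nat.Prime.coprime_iff_not_dvd (by norm_num : Nat.Prime 11)).mpr h11N).symm.dvd_of_dvd_mul_left
        (show Nat.card N ∣ 11 * 720 from
          (show 11 * 720 = Nat.card G by rw [hcard]) ▸ Subgroup.card_subgroup_dvd_card N)
    have h5N : ¬ 5 ∣ Nat.card N := by
      intro hd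
      have h := one_add_sum_le N {5} (by simp) (fun n hn g hg => by
        rw [Finset.mem_singleton] at hn
        subst hn
        exact mem_normal_of_orderOf hQ5 N hd hg)
      rw [Finset.sum_singleton, h5] at h
      have := Nat.le_of_dvd (by norm_num) h720
      omega
    have h144 : Nat.card N ∣ 144 :=
      ((Nat.Prime.coprime_iff_not_dvd (by norm_num : Nat.Prime 5)).mpr h5N).symm.dvd_of_dvd_mul_left
        (show Nat.card N ∣ 5 * 144 from h720)
    obtain ⟨q, hq, hqN⟩ := Nat.exists_prime_and_dvd
      (show Nat.card N ≠ 1 from fun e => hne (Subgroup.card_eq_one.mp e))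
    have : Fact q.Prime := ⟨hq⟩
    let Q : Sylow q N := default
    set H : Subgroup G := (Q : Subgroup N).map N.subtype with hH
    have hsup : Subgroup.normalizer (H : Set G) ⊔ N = ⊤ := Q.normalizer_sup_eq_top
    have hidx : 11 ∣ Nat.card (Subgroup.normalizer (H : Set G)) := by
      have hsurj : Function.Surjective ((QuotientGroup.mk' N).comp
          (Subgroup.normalizer (H : Set G)).subtype) := by
        rw [← MonoidHom.range_eq_top, MonoidHom.range_comp, Subgroup.range_subtype]
        have h := QuotientGroup.comap_map_mk' N (Subgroup.normalizer (H : Set G))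
        rw [sup_comm, hsup] at h
        apply Subgroup.comap_injective (QuotientGroup.mk'_surjective N)
        rw [h, Subgroup.comap_top]
      refine dvd_trans ?_ (Subgroup.card_dvd_of_surjective _ hsurj)
      have h := N.card_mul_index
      rw [hcard] at h
      exact ((Nat.Prime.coprime_iff_not_dvd (by norm_num : Nat.Prime 11)).mpr h11N).dvd_of_dvd_mul_left
        (h ▸ (by norm_num : 11 ∣ 7920))
    obtain ⟨w, hw⟩ := exists_prime_orderOf_dvd_card' 11 hidx
    have hwo : orderOf (w : G) = 11 := by rw [Subgroup.orderOf_coe, hw]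
    obtain ⟨k, hk⟩ := IsPGroup.iff_card.mp Q.isPGroup'
    have hk0 : k ≠ 0 := by
      rintro rfl
      have := Q.dvd_card_of_dvd_card hqN
      rw [hk, pow_zero, Nat.dvd_one] at this
      exact hq.ne_one this
    have hHc : Nat.card H = q ^ k := by
      rw [hH, Nat.card_congr (Subgroup.equivMapOfInjective _ _ N.subtype_injective).symm.toEquiv, hk]
    have hqk : q ^ k ∣ 144 := (hk ▸ Subgroup.card_subgroup_dvd_card (Q : Subgroup N)).trans h144
    let α := {p : G // p ∈ H ∧ p ≠ 1}
    have hiff : ∀ p : G, ((MulAut.conj (w : G)).toEquiv p ∈ H ∧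
        (MulAut.conj (w : G)).toEquiv p ≠ 1) ↔ (p ∈ H ∧ p ≠ 1) := fun p => by
      show ((w : G) * p * (w : G)⁻¹ ∈ H ∧ (w : G) * p * (w : G)⁻¹ ≠ 1) ↔ _
      rw [← Subgroup.mem_normalizer_iff.mp w.2 p, Ne, conj_eq_one_iff]
    let σ : Equiv.Perm α := Equiv.Perm.subtypePerm (MulAut.conj (w : G)).toEquiv hiff
    have hσ : ∀ (i : ℕ) (a : α), ((σ ^ i) a : G) = (w : G) ^ i * a * ((w : G) ^ i)⁻¹ := by
      intro i
      induction i with
      | zero => intro a; simp
      | succ i ih =>
        intro a
        rw [pow_succ', Equiv.Perm.mul_apply]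
        show (w : G) * ((σ ^ i) a : G) * (w : G)⁻¹ = _
        rw [ih, pow_succ']
        group
    have hno : ∀ a, σ a ≠ a := by
      intro a ha
      have ha' : (w : G) * (a : G) * (w : G)⁻¹ = a := by
        have := hσ 1 a
        rw [pow_one, pow_one, ha] at this
        exact this.symm
      obtain ⟨P, hP⟩ := (IsPGroup.of_card (p := 11) (n := 1) (G := Subgroup.zpowers (w : G))
        (by rw [Nat.card_zpowers, hwo, pow_one])).exists_le_sylow
      have hPw : (P : Subgroup G) = Subgroup.zpowers (w : G) :=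
        (Subgroup.eq_of_le_of_card_ge hP (by rw [Nat.card_zpowers, hwo, hQ11 P])).symm
      have hmem : (a : G) ∈ Subgroup.normalizer ((P : Subgroup G) : Set G) := by
        refine Subgroup.centralizer_le_normalizer _ ?_
        rw [hPw, Subgroup.zpowers_eq_closure, Subgroup.centralizer_closure]
        exact Subgroup.mem_centralizer_singleton_iff.mpr (mul_inv_eq_iff_eq_mul.mp ha').symm
      have d1 := Subgroup.orderOf_dvd_natCard _ hmem
      rw [hN11 P] at d1
      have d2 : orderOf (a : G) ∣ 144 := (hHc ▸ Subgroup.orderOf_dvd_natCard _ a.2.1).trans hqk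
      have d3 := Nat.dvd_gcd d1 d2
      norm_num at d3
      exact a.2.2 d3
    have hdiv := dvd_card_of_no_fixed_point (p := 11) σ (Equiv.ext fun a => Subtype.ext (by
      rw [hσ, ← hwo, pow_orderOf_eq_one]; simp)) hno
    have hα : Nat.card α + 1 = q ^ k := by
      rw [← hHc]
      have e1 : Nat.card α = ((H : Set G) \ {1}).ncard := Nat.card_coe_set_eq ((H : Set G) \ {1})
      rw [e1, Set.ncard_sdiff_singleton_add_one (one_mem H), ← Nat.card_coe_set_eq]
      rfl
    have hq23 : q = 2 ∨ q = 3 := by
      have h : q ∣ 2 ^ 4 * 3 ^ 2 := (dvd_pow_self q hk0).trans hqk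
      rcases hq.dvd_mul.mp h with e | e
      · exact Or.inl ((Nat.prime_dvd_prime_iff_eq hq Nat.prime_two).mp (hq.dvd_of_dvd_pow e))
      · exact Or.inr ((Nat.prime_dvd_prime_iff_eq hq Nat.prime_three).mp (hq.dvd_of_dvd_pow e))
    rcases hq23 with rfl | rfl
    · have hk4 : k ≤ 4 := by
        by_contra hgt
        exact absurd ((pow_dvd_pow 2 (show 5 ≤ k by omega)).trans hqk) (by norm_num)
      interval_cases k <;> norm_num at hα <;> omega
    · have hk2 : k ≤ 2 := by
        by_contra hgt
        exact absurd ((pow_dvd_pow 3 (show 3 ≤ k by omega)).trans hqk) (by norm_num)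
      interval_cases k <;> norm_num at hα <;> omega
  have h165 : cnt G 2 = 165 := by
    refine h2.resolve_left fun h1 => ?_
    obtain ⟨u, hu⟩ := exists_prime_orderOf_dvd_card' (G := G) 2 (by rw [hcard]; norm_num)
    have hfix : ∀ g : G, g * u * g⁻¹ = u := by
      intro g
      have := (Nat.card_eq_one_iff_unique.mp h1).1
      exact congrArg Subtype.val (Subsingleton.elim
        (⟨g * u * g⁻¹, (orderOf_conj g u).trans hu⟩ : {g : G // orderOf g = 2}) ⟨u, hu⟩)
    have hnormal : (Subgroup.zpowers u).Normal := ⟨fun n hn g => by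
      obtain ⟨i, rfl⟩ := Subgroup.mem_zpowers_iff.mp hn
      rw [← conj_zpow, hfix g]
      exact Subgroup.zpow_mem _ (Subgroup.mem_zpowers u) i⟩
    have := hsmall _ hnormal (by rw [Nat.card_zpowers, hu]; norm_num)
    rw [Subgroup.zpowers_eq_bot] at this
    rw [this, orderOf_one] at hu
    omega
  have : Nontrivial G := Finite.one_lt_card_iff_nontrivial.mp (by rw [hcard]; norm_num)
  refine ⟨fun N hN => ?_⟩
  by_cases h11N : 11 ∣ Nat.card N
  swap
  · exact Or.inl (hsmall N hN h11N)
  right
  by_contra htop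
  have hmul := N.card_mul_index
  rw [hcard] at hmul
  have hidx1 : N.index ≠ 1 := fun e => htop (Subgroup.index_eq_one.mp e)
  have hall11 : ∀ g : G, orderOf g = 11 → g ∈ N := fun g hg =>
    mem_normal_of_orderOf hQ11 N h11N hg
  by_cases h5N : 5 ∣ Nat.card N
  · have hb := one_add_sum_le N {5, 11} (by simp) (fun n hn g hg => by
      rw [Finset.mem_insert, Finset.mem_singleton] at hn
      rcases hn with rfl | rfl
      · exact mem_normal_of_orderOf hQ5 N h5N hg
      · exact hall11 g hg)
    rw [Finset.sum_pair (by norm_num), h5, h11] at hb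
    have hidx : N.index = 2 := by
      have hpos : 0 < N.index := Nat.pos_of_ne_zero Subgroup.index_ne_zero_of_finite
      have : N.index ≤ 2 := by
        by_contra hgt
        have := Nat.mul_le_mul hb (show 3 ≤ N.index by omega)
        omega
      omega
    let Q : Sylow 11 N := default
    have hsup : Subgroup.normalizer (((Q : Subgroup N).map N.subtype : Subgroup G) : Set G) ⊔ N = ⊤ :=
      Q.normalizer_sup_eq_top
    refine htop (top_le_iff.mp (hsup ▸ sup_le ?_ le_rfl))
    have hQc : Nat.card ((Q : Subgroup N).map N.subtype) = 11 := by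
      rw [Nat.card_congr (Subgroup.equivMapOfInjective _ _ N.subtype_injective).symm.toEquiv,
        H30.card_sylow_subgroup Q (a := 1) (m := Nat.card N / 11)
          (by rw [pow_one, Nat.mul_div_cancel' h11N]) (fun hd => by
            have h121 : 11 * 11 ∣ 7920 := by
              rw [← hmul, ← Nat.mul_div_cancel' h11N]
              exact (Nat.mul_dvd_mul_left 11 hd).mul_right _
            norm_num at h121), pow_one]
    have hmult : 11 ^ (Nat.card G).factorization 11 = 11 := by
      have h3 := hQ11 default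
      rwa [Sylow.card_eq_multiplicity] at h3
    intro g hg
    let P : Sylow 11 G := Sylow.ofCard ((Q : Subgroup N).map N.subtype) (by rw [hQc, hmult])
    have hg55 : orderOf g ∣ 55 := hN11 P ▸ Subgroup.orderOf_dvd_natCard _ hg
    have h28 : g = (g * g) ^ 28 := by
      rw [← pow_two, ← pow_mul, show 2 * 28 = 55 + 1 by norm_num, pow_succ,
        orderOf_dvd_iff_pow_eq_one.mp hg55, one_mul]
    rw [h28]
    exact pow_mem (Subgroup.mul_self_mem_of_index_two hidx g) 28
  · have hco : (Nat.card N).Coprime 5 :=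
      ((Nat.Prime.coprime_iff_not_dvd (by norm_num : Nat.Prime 5)).mpr h5N).symm
    have h1584 : Nat.card N ∣ 1584 := hco.dvd_of_dvd_mul_left
      (show Nat.card N ∣ 5 * 1584 from
        (show 5 * 1584 = Nat.card G by rw [hcard]) ▸ Subgroup.card_subgroup_dvd_card N)
    have hle := Nat.le_of_dvd (by norm_num) h1584
    have hb1 := one_add_sum_le N {11} (by simp) (fun n hn g hg => by
      rw [Finset.mem_singleton] at hn; subst hn; exact hall11 g hg)
    rw [Finset.sum_singleton, h11] at hb1
    have hN1584 : Nat.card N = 1584 := by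
      obtain ⟨e, he⟩ := h1584
      by_contra hne
      have : 2 ≤ e := by
        rcases Nat.lt_or_ge e 2 with h | h
        · interval_cases e <;> omega
        · exact h
      have := Nat.mul_le_mul hb1 this
      omega
    have hidx : N.index = 5 := by rw [hN1584] at hmul; omega
    have hb := one_add_sum_le N {2, 11} (by simp) (fun n hn g hg => by
      rw [Finset.mem_insert, Finset.mem_singleton] at hn
      rcases hn with rfl | rfl
      · have h5' : g ^ 5 ∈ N := hidx ▸ Subgroup.pow_index_mem N g
        have h2g : g ^ 5 = g := by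
          rw [show 5 = 2 * 2 + 1 by norm_num, pow_succ, pow_mul,
            show g ^ 2 = 1 from hg ▸ pow_orderOf_eq_one g, one_pow, one_mul]
        exact h2g ▸ h5'
      · exact hall11 g hg)
    rw [Finset.sum_pair (by norm_num), h165, h11] at hb
    omega

/-- Counting characterisation: a group of order 7920 whose element counts are among those of a
simple group of order 7920 is simple. -/
theorem isSimpleGroup_of_sameCounts {M : Type*} [Group M] [Fintype M] [IsSimpleGroup M]
    (hM : Nat.card M = 7920) (hcard : Nat.card G = 7920)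
    (hsub : ∀ n, 0 < cnt G n → ∃ k, cnt G n = cnt M k) : IsSimpleGroup G := by
  have : Fact (Nat.Prime 5) := ⟨by norm_num⟩
  have : Fact (Nat.Prime 11) := ⟨by norm_num⟩
  obtain ⟨c2, c5, c11, crest⟩ := simple_counts hM
  have key : ∀ v, 0 < v → (∃ k, v = cnt M k) →
      v = 1 ∨ v = 165 ∨ v = 1584 ∨ v = 1440 ∨ (2 ∣ v ∧ 5 ∣ v ∧ 11 ∣ v) := by
    rintro v hv ⟨k, rfl⟩
    by_cases e1 : k = 1
    · exact Or.inl (by rw [e1, cnt_one])
    by_cases e2 : k = 2
    · exact Or.inr (Or.inl (e2 ▸ c2))
    by_cases e5 : k = 5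
    · exact Or.inr (Or.inr (Or.inl (e5 ▸ c5)))
    by_cases e11 : k = 11
    · exact Or.inr (Or.inr (Or.inr (Or.inl (e11 ▸ c11))))
    exact Or.inr (Or.inr (Or.inr (Or.inr (crest k e1 e2 e5 e11 hv))))
  have g11 : cnt G 11 = 1440 := by
    obtain ⟨x, hx⟩ := exists_prime_orderOf_dvd_card' (G := G) 11 (by rw [hcard]; norm_num)
    have hpos := cnt_pos hx
    have h := cnt_prime (G := G) (p := 11) (m := 720) (by rw [hcard]) (by norm_num)
    have hmod : Nat.card (Sylow 11 G) % 11 = 1 := card_sylow_modEq_one 11 G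
    rcases key _ hpos (hsub 11 hpos) with e | e | e | e | ⟨-, -, e⟩
    all_goals omega
  have g5 : cnt G 5 = 1584 := by
    obtain ⟨x, hx⟩ := exists_prime_orderOf_dvd_card' (G := G) 5 (by rw [hcard]; norm_num)
    have hpos := cnt_pos hx
    have h := cnt_prime (G := G) (p := 5) (m := 1584) (by rw [hcard]) (by norm_num)
    have hmod : Nat.card (Sylow 5 G) % 5 = 1 := card_sylow_modEq_one 5 G
    rcases key _ hpos (hsub 5 hpos) with e | e | e | e | ⟨-, e, -⟩
    all_goals omega
  refine isSimpleGroup_of_counts hcard g11 g5 ?_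
  have : Fact (Nat.Prime 2) := ⟨Nat.prime_two⟩
  obtain ⟨x, hx⟩ := exists_prime_orderOf_dvd_card' (G := G) 2 (by rw [hcard]; norm_num)
  have hpos := cnt_pos hx
  have hodd : ¬ 2 ∣ cnt G 2 := by
    intro hd
    classical
    let _ := Fintype.ofFinite G
    have hbig := two_dvd_card_of_inv (G := G) (fun n => 2 < n) fun n hn => hn
    have hs : cnt G 1 + cnt G 2 + Nat.card {g : G // 2 < orderOf g} = Nat.card G := by
      simp only [cnt, Nat.card_eq_fintype_card, Fintype.card_subtype, Finset.card_filter]
      rw [← Finset.sum_add_distrib, ← Finset.sum_add_distrib, Fintype.card_eq_sum_ones]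
      refine Finset.sum_congr rfl fun g _ => ?_
      have := orderOf_pos g
      split_ifs <;> omega
    rw [cnt_one, hcard] at hs
    omega
  rcases key _ hpos (hsub 2 hpos) with e | e | e | e | ⟨e, -, -⟩
  all_goals omega

end Cfsg.Agent.H30.SameCounts
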